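import Cfsg.Agent.H460.OT.BruComb

/-!
# S3509: a root fixed by a frame automorphism (helper76)

`S` a closed symmetric reflection stable set of roots (`RSet`), `θ` an additive automorphism of the root lattice preserving the
roots, `S` and the positive elements of `S`.

* `exists_mid` : non-orthogonality chains can be shortened to length two;
* `high` : a nonempty `θ`-stable connected part `Ψ` of `S` contains a `θ`-fixed positive root `β` such that `β + a` is not a
  root for the positive `a ∈ S`;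
* `nb S a` : the number of the `b ∈ S` such that `a - b` is a root; `nb_map` : invariance under `θ`; `nb_eq` : constant along
  non-orthogonality (simply laced);
* `high_nb` : the case `Ψ = {a ∈ S | j ≤ nb S a}`.
-/

set_option autoImplicit false
set_option linter.unusedSectionVars false

namespace Cfsg.Agent.H76.RG

open CoxeterSystem Cfsg.Agent.ChevalleyStructure.CoxeterGeom Cfsg.Agent.Tits.Roots Cfsg.Agent.Tits.Core
  Cfsg.Agent.Tits.RootComb Cfsg.Agent.Tits.Exchange Cfsg.Agent.Nodes.Reps Cfsg.Agent.Nodes.BNOf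
  Cfsg.Agent.Nodes.Coroot Cfsg.Agent.Nodes.PosPair Cfsg.Agent.KFacts.RgdSL Cfsg.Agent.H460.OT

variable {I W : Type*} [Fintype I] [DecidableEq I] [Group W] {M : CoxeterMatrix I}
  {cs : CoxeterSystem M W} {A : I → I → ℤ} {h : IsCartan M A}

/-- closed symmetric reflection stable sets of roots -/
structure RSet (cs : CoxeterSystem M W) (h : IsCartan M A) (S : Set (I → ℤ)) : Prop where
  root : ∀ a ∈ S, IsRoot cs h a
  neg : ∀ a ∈ S, -a ∈ S
  add : ∀ a ∈ S, ∀ b ∈ S, IsRoot cs h (a + b) → a + b ∈ S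
  refl : ∀ a ∈ S, ∀ b ∈ S, a - cpr cs h a b • b ∈ S

/-- additive automorphisms of the root lattice preserving the roots, `S` and its positive part -/
structure TSet (cs : CoxeterSystem M W) (h : IsCartan M A) (S : Set (I → ℤ)) (θ : (I → ℤ) ≃+ (I → ℤ)) : Prop where
  root : ∀ a, IsRoot cs h (θ a) ↔ IsRoot cs h a
  mem : ∀ a, θ a ∈ S ↔ a ∈ S
  pos : ∀ a ∈ S, 0 ≤ a → 0 ≤ θ a

section

variable [Finite W]

theorem cpr_sub' {a : I → ℤ} (ha : IsRoot cs h a) (y y' : I → ℤ) :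
    cpr cs h (y - y') a = cpr cs h y a - cpr cs h y' a := by
  rw [sub_eq_add_neg, cpr_add cs h _ _ ha, cpr_neg cs h _ ha, sub_eq_add_neg]

theorem cpr_ne_comm {x y : I → ℤ} (hx : IsRoot cs h x) (hy : IsRoot cs h y) (hc : cpr cs h x y ≠ 0) :
    cpr cs h y x ≠ 0 := fun h0 => hc ((cpr_zero_comm cs h hx hy).2 h0)

theorem cpr_pos_comm {x y : I → ℤ} (hx : IsRoot cs h x) (hy : IsRoot cs h y) (hc : 0 < cpr cs h x y) :
    0 < cpr cs h y x := by
  have := Fintype.ofFinite W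
  rw [cpr_pos_iff cs h y hx, form_comm, ← cpr_pos_iff cs h x hy]
  exact hc

theorem isRoot_add_of_neg {x y : I → ℤ} (hx : IsRoot cs h x) (hy : IsRoot cs h y) (hxy : x ≠ -y)
    (hc : cpr cs h x y < 0) : IsRoot cs h (x + y) := by
  have h1 := isRoot_sub_of_pos hx hy.neg hxy (by rw [cpr_neg_right cs h x hy]; omega)
  rwa [sub_neg_eq_add] at h1

variable {S : Set (I → ℤ)}

/-- **Chains can be shortened.** -/
theorem exists_mid (hS : RSet cs h S) {Ψ : Set (I → ℤ)} (hsub : Ψ ⊆ S) {a b : I → ℤ} (ha : a ∈ Ψ)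
    (hconn : Relation.ReflTransGen (fun x y => y ∈ Ψ ∧ cpr cs h y x ≠ 0) a b) :
    b ∈ Ψ ∧ ∃ c ∈ S, cpr cs h c a ≠ 0 ∧ cpr cs h c b ≠ 0 := by
  induction hconn with
  | refl =>
    refine ⟨ha, a, hsub ha, ?_, ?_⟩ <;> rw [cpr_self cs h (hS.root a (hsub ha))] <;> norm_num
  | @tail x y _ hxy ih =>
    obtain ⟨hx, c, hc, h1, h2⟩ := ih
    obtain ⟨hy, h3⟩ := hxy
    refine ⟨hy, ?_⟩
    have ra := hS.root a (hsub ha)
    have rx := hS.root x (hsub hx)
    have ry := hS.root y (hsub hy)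
    have rc := hS.root c hc
    by_cases hxa : cpr cs h x a = 0
    · by_cases hcy : cpr cs h c y = 0
      · refine ⟨c - cpr cs h c x • x, hS.refl c hc x (hsub hx), ?_, ?_⟩
        · rw [cpr_sub' ra, cpr_smul cs h _ _ ra, hxa, mul_zero, sub_zero]
          exact h1
        · rw [cpr_sub' ry, cpr_smul cs h _ _ ry, hcy, zero_sub, neg_ne_zero]
          exact mul_ne_zero h2 (cpr_ne_comm ry rx h3)
      · exact ⟨c, hc, h1, hcy⟩
    · exact ⟨x, hsub hx, hxa, cpr_ne_comm ry rx h3⟩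

/-- no positive element of `S` can be added to `β` -/
def Top (cs : CoxeterSystem M W) (h : IsCartan M A) (S : Set (I → ℤ)) (β : I → ℤ) : Prop :=
  β ∈ S ∧ 0 ≤ β ∧ ∀ a ∈ S, 0 ≤ a → ¬ IsRoot cs h (β + a)

theorem Top.dom (hS : RSet cs h S) {β : I → ℤ} (hβ : Top cs h S β) {a : I → ℤ} (ha : a ∈ S) (h0 : 0 ≤ a) :
    0 ≤ cpr cs h a β := by
  by_contra hcon
  push Not at hcon
  refine hβ.2.2 a ha h0 ?_
  rw [add_comm]
  refine isRoot_add_of_neg (hS.root a ha) (hS.root β hβ.1) ?_ hcon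
  rintro rfl
  exact (hS.root β hβ.1).not_pos_neg hβ.2.1 (neg_nonneg.1 h0)

theorem Top.eq (hS : RSet cs h S) {Ψ : Set (I → ℤ)} (hsub : Ψ ⊆ S) {β β' : I → ℤ} (hβ : Top cs h S β)
    (hβ' : Top cs h S β') (hm : β ∈ Ψ)
    (hconn : Relation.ReflTransGen (fun x y => y ∈ Ψ ∧ cpr cs h y x ≠ 0) β β') : β = β' := by
  by_contra hne
  have r := hS.root β hβ.1
  have r' := hS.root β' hβ'.1
  have h1 := hβ.dom hS hβ'.1 hβ'.2.1
  rcases h1.lt_or_eq with h2 | h2
  · have h3 := isRoot_sub_of_pos r' r (fun e => hne e.symm) h2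
    rcases h3.pos_or_neg with h4 | h4
    · have h5 : β' - β ∈ S := by
        have := hS.add β' hβ'.1 (-β) (hS.neg β hβ.1) (by rwa [← sub_eq_add_neg])
        rwa [← sub_eq_add_neg] at this
      refine hβ.2.2 _ h5 h4 ?_
      rwa [add_sub_cancel]
    · have h5 : β - β' ∈ S := by
        have := hS.add β hβ.1 (-β') (hS.neg β' hβ'.1) (by
          have := h3.neg
          rwa [neg_sub, sub_eq_add_neg] at this)
        rwa [← sub_eq_add_neg] at this
      refine hβ'.2.2 _ h5 ?_ ?_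
      · rw [← neg_sub, neg_nonneg]
        exact h4
      · rwa [add_sub_cancel]
  · obtain ⟨-, c, hc, h3, h4⟩ := exists_mid hS hsub hm hconn
    have key : ∀ c ∈ S, 0 ≤ c → cpr cs h c β ≠ 0 → cpr cs h c β' ≠ 0 → False := by
      intro c hc h0 h3 h4
      have rc := hS.root c hc
      have h5 : 0 < cpr cs h c β := lt_of_le_of_ne (hβ.dom hS hc h0) h3.symm
      have h6 : 0 < cpr cs h c β' := lt_of_le_of_ne (hβ'.dom hS hc h0) h4.symm
      have h7 := hS.refl c hc β hβ.1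
      rcases (hS.root _ h7).pos_or_neg with h8 | h8
      · have h9 := hβ.dom hS h7 h8
        rw [cpr_sub' r, cpr_smul cs h _ _ r, cpr_self cs h r] at h9
        omega
      · have h9 := hβ'.dom hS (hS.neg _ h7) (neg_nonneg.2 h8)
        have h10 : cpr cs h β β' = 0 := (cpr_zero_comm cs h r' r).1 h2.symm
        rw [cpr_neg cs h _ r', cpr_sub' r', cpr_smul cs h _ _ r', h10, mul_zero] at h9
        omega
    rcases (hS.root c hc).pos_or_neg with h0 | h0
    · exact key c hc h0 h3 h4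
    · refine key (-c) (hS.neg c hc) (neg_nonneg.2 h0) ?_ ?_
      · rw [cpr_neg cs h _ r, neg_ne_zero]; exact h3
      · rw [cpr_neg cs h _ r', neg_ne_zero]; exact h4

/-- **A root fixed by `θ`.** -/
theorem high (hS : RSet cs h S) {θ : (I → ℤ) ≃+ (I → ℤ)} (hθ : TSet cs h S θ) {Ψ : Set (I → ℤ)} (hsub : Ψ ⊆ S)
    (hne : Ψ.Nonempty) (hcl : ∀ a ∈ Ψ, ∀ b ∈ S, cpr cs h b a ≠ 0 → b ∈ Ψ)
    (hconn : ∀ a ∈ Ψ, ∀ b ∈ Ψ, Relation.ReflTransGen (fun x y => y ∈ Ψ ∧ cpr cs h y x ≠ 0) a b)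
    (hst : ∀ a ∈ Ψ, θ a ∈ Ψ) :
    ∃ β ∈ Ψ, 0 ≤ β ∧ θ β = β ∧ ∀ a ∈ S, 0 ≤ a → ¬ IsRoot cs h (β + a) := by
  have hfin : {a | a ∈ Ψ ∧ 0 ≤ a}.Finite := (RGD.finite_roots (cs := cs) (h := h)).subset fun x hx => hS.root x (hsub hx.1)
  have hnegΨ : ∀ a ∈ Ψ, -a ∈ Ψ := fun a ha => hcl a ha (-a) (hS.neg a (hsub ha)) (by
    rw [cpr_neg cs h _ (hS.root a (hsub ha)), cpr_self cs h (hS.root a (hsub ha))]; norm_num)
  have hne' : {a | a ∈ Ψ ∧ 0 ≤ a}.Nonempty := by
    obtain ⟨a, ha⟩ := hne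
    rcases (hS.root a (hsub ha)).pos_or_neg with h0 | h0
    · exact ⟨a, ha, h0⟩
    · exact ⟨-a, hnegΨ a ha, neg_nonneg.2 h0⟩
  obtain ⟨β, hβ, hmax⟩ := hfin.exists_maximalFor (fun a => ∑ i, a i) _ hne'
  have hT : Top cs h S β := by
    refine ⟨hsub hβ.1, hβ.2, fun a ha h0 hr => ?_⟩
    have rβ := hS.root β (hsub hβ.1)
    have ra := hS.root a ha
    have h1 : β + a ∈ S := hS.add β (hsub hβ.1) a ha hr
    have h2 : β + a ∈ Ψ := by
      by_cases hc : cpr cs h (β + a) β = 0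
      · have h3 : cpr cs h a β = -2 := by
          rw [cpr_add cs h _ _ rβ, cpr_self cs h rβ] at hc
          omega
        have haΨ : a ∈ Ψ := hcl β hβ.1 a ha (by rw [h3]; norm_num)
        refine hcl a haΨ _ h1 ?_
        rw [cpr_add cs h _ _ ra, cpr_self cs h ra]
        intro h4
        have h5 : cpr cs h β a = -2 := by omega
        have h6 := cpr_mul_lt ra rβ (by
          rintro rfl
          rw [cpr_self cs h ra] at h3
          omega) (by
          rintro rfl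
          exact rβ.not_pos_neg hβ.2 (neg_nonneg.1 h0))
        rw [h3, h5] at h6
        omega
      · exact hcl β hβ.1 _ h1 hc
    have h3 := hmax (j := β + a) ⟨h2, add_nonneg hβ.2 h0⟩ (by
      simp only [Pi.add_apply, Finset.sum_add_distrib]
      have : 0 ≤ ∑ i, a i := Finset.sum_nonneg fun i _ => h0 i
      omega)
    simp only [Pi.add_apply, Finset.sum_add_distrib] at h3
    have h4 : 0 < ∑ i, a i := by
      refine lt_of_le_of_ne (Finset.sum_nonneg fun i _ => h0 i) fun h5 => ?_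
      have h6 := (Finset.sum_eq_zero_iff_of_nonneg fun i _ => h0 i).1 h5.symm
      exact ra.ne_zero (funext fun i => h6 i (Finset.mem_univ i))
    omega
  have hT' : Top cs h S (θ β) := by
    refine ⟨(hθ.mem β).2 hT.1, hθ.pos β hT.1 hT.2.1, fun a ha h0 hr => ?_⟩
    have h1 : θ (θ.symm a) = a := θ.apply_symm_apply a
    have h2 : θ.symm a ∈ S := (hθ.mem _).1 (by rw [h1]; exact ha)
    have h3 : 0 ≤ θ.symm a := by
      rcases (hS.root _ h2).pos_or_neg with h4 | h4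
      · exact h4
      · exfalso
        have h5 := hθ.pos (-θ.symm a) (hS.neg _ h2) (neg_nonneg.2 h4)
        rw [map_neg, h1] at h5
        exact (hS.root a ha).not_pos_neg h0 (neg_nonneg.1 h5)
    refine hT.2.2 _ h2 h3 ?_
    rw [← hθ.root, map_add, h1]
    exact hr
  exact ⟨β, hβ.1, hβ.2, (hT.eq hS hsub hT' hβ.1 (hconn β hβ.1 _ (hst β hβ.1))).symm, hT.2.2⟩

end

/-! ### neighbours -/

/-- the number of the `b ∈ S` such that `a - b` is a root -/
noncomputable def nb (cs : CoxeterSystem M W) (h : IsCartan M A) (S : Set (I → ℤ)) (a : I → ℤ) : ℕ :=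
  {b | b ∈ S ∧ IsRoot cs h (a - b)}.ncard

/-- invariance under automorphisms -/
theorem nb_map {S S' : Set (I → ℤ)} {F : (I → ℤ) → (I → ℤ)} (hF : Function.Bijective F)
    (hsub : ∀ a b, F (a - b) = F a - F b) (hroot : ∀ a, IsRoot cs h (F a) ↔ IsRoot cs h a)
    (hmem : ∀ a, F a ∈ S' ↔ a ∈ S) (a : I → ℤ) : nb cs h S' (F a) = nb cs h S a := by
  have e : {b | b ∈ S' ∧ IsRoot cs h (F a - b)} = F '' {b | b ∈ S ∧ IsRoot cs h (a - b)} := by
    ext b
    constructor
    · rintro ⟨hb, hr⟩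
      obtain ⟨c, rfl⟩ := hF.2 b
      exact ⟨c, ⟨(hmem c).1 hb, (hroot _).1 (by rw [hsub]; exact hr)⟩, rfl⟩
    · rintro ⟨c, ⟨hc, hr⟩, rfl⟩
      exact ⟨(hmem c).2 hc, by rw [← hsub]; exact (hroot _).2 hr⟩
  unfold nb
  rw [e, Set.ncard_image_of_injective _ hF.1]

theorem nb_theta {S : Set (I → ℤ)} {θ : (I → ℤ) ≃+ (I → ℤ)} (hθ : TSet cs h S θ) (a : I → ℤ) :
    nb cs h S (θ a) = nb cs h S a :=
  nb_map θ.bijective (fun a b => map_sub θ a b) hθ.root hθ.mem a

section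

variable [Finite W] {S : Set (I → ℤ)}

theorem nb_neg (hS : RSet cs h S) (a : I → ℤ) : nb cs h S (-a) = nb cs h S a :=
  nb_map (F := fun x => -x) neg_involutive.bijective (fun a b => by abel)
    (fun a => ⟨fun h => by have := h.neg; rwa [neg_neg] at this, fun h => h.neg⟩)
    (fun a => ⟨fun h => by have := hS.neg _ h; rwa [neg_neg] at this, fun h => hS.neg _ h⟩) a

/-- constant along non-orthogonality -/
theorem nb_eq (hs : SL cs h) (hS : RSet cs h S) {a b : I → ℤ} (ha : a ∈ S) (hb : b ∈ S) (hc : cpr cs h b a ≠ 0) :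
    nb cs h S a = nb cs h S b := by
  have ra := hS.root a ha
  have rb := hS.root b hb
  have key : ∀ b ∈ S, cpr cs h b a = 1 → nb cs h S a = nb cs h S b := by
    intro b hb hc
    have rb := hS.root b hb
    have hd := isRoot_sub rb ra hc
    have hdS : b - a ∈ S := by
      have := hS.add b hb (-a) (hS.neg a ha) (by rwa [← sub_eq_add_neg])
      rwa [← sub_eq_add_neg] at this
    obtain ⟨s, hs'⟩ := exists_rf (cs := cs) (h := h) hd
    have h1 : cpr cs h a (b - a) = -1 := by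
      rw [hs a (b - a) ra hd, cpr_sub' ra, hc, cpr_self cs h ra]; norm_num
    have h2 : rep cs h s a = b := by
      rw [hs' a, h1]; module
    have h3 : nb cs h S (rep cs h s a) = nb cs h S a := by
      refine nb_map (F := fun x => rep cs h s x) ⟨rep_injective_apply cs h s, fun y => ⟨rep cs h s⁻¹ y, rep_apply_inv cs h s y⟩⟩
        (fun a b => map_sub _ a b) (fun a => ⟨fun h' => ?_, fun h' => h'.act s⟩) (fun x => ⟨fun h' => ?_, fun h' => ?_⟩) a
      · have := h'.act s⁻¹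
        rwa [rep_inv_apply] at this
      · have h4 : rep cs h s (rep cs h s x) ∈ S := by
          rw [hs' (rep cs h s x)]
          exact hS.refl _ h' _ hdS
        rwa [← rep_mul_apply, hs'.mul_self hd, map_one, Module.End.one_apply] at h4
      · rw [hs' x]
        exact hS.refl _ h' _ hdS
    rw [← h2, h3]
  rcases hs.cases rb ra with ⟨e, -⟩ | ⟨e, -⟩ | ⟨-, -, h1, h2⟩
  · rw [e]
  · rw [e, nb_neg hS]
  · have h3 : cpr cs h b a = 1 ∨ cpr cs h b a = -1 := by omega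
    rcases h3 with h3 | h3
    · exact key b hb h3
    · rw [← nb_neg hS b]
      refine key (-b) (hS.neg b hb) ?_
      rw [cpr_neg cs h _ ra, h3]; norm_num

/-- **The fixed root, with the number of neighbours.** -/
theorem high_nb (hs : SL cs h) (hS : RSet cs h S) {θ : (I → ℤ) ≃+ (I → ℤ)} (hθ : TSet cs h S θ) (j : ℕ)
    (hne : ∃ a ∈ S, j ≤ nb cs h S a)
    (hconn : ∀ a ∈ S, ∀ b ∈ S, j ≤ nb cs h S a → j ≤ nb cs h S b →
      Relation.ReflTransGen (fun x y => y ∈ S ∧ cpr cs h y x ≠ 0) a b) :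
    ∃ β ∈ S, 0 ≤ β ∧ θ β = β ∧ j ≤ nb cs h S β ∧ ∀ a ∈ S, 0 ≤ a → ¬ IsRoot cs h (β + a) := by
  obtain ⟨β, ⟨h1, h2⟩, h3, h4, h5⟩ := high (Ψ := {a | a ∈ S ∧ j ≤ nb cs h S a}) hS hθ (fun a ha => ha.1) (by
      obtain ⟨a, ha, hj⟩ := hne
      exact ⟨a, ha, hj⟩)
    (fun a ha b hb hc => ⟨hb, by rw [← nb_eq hs hS ha.1 hb hc]; exact ha.2⟩)
    (by
      rintro a ⟨ha, hja⟩ b ⟨hb, hjb⟩
      have h1 := hconn a ha b hb hja hjb
      clear hjb hb
      induction h1 with
      | refl => exact Relation.ReflTransGen.refl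
      | @tail x y hx hxy ih =>
        refine Relation.ReflTransGen.tail ih ⟨⟨hxy.1, ?_⟩, hxy.2⟩
        have h6 : x ∈ S ∧ j ≤ nb cs h S x := by
          rcases Relation.ReflTransGen.cases_tail ih with e | ⟨z, -, hz⟩
          · rw [e]; exact ⟨ha, hja⟩
          · exact hz.1
        rw [← nb_eq hs hS h6.1 hxy.1 hxy.2]
        exact h6.2)
    (fun a ha => ⟨(hθ.mem a).2 ha.1, by rw [nb_theta hθ]; exact ha.2⟩)
  exact ⟨β, h1, h3, h4, h2, h5⟩

end

end Cfsg.Agent.H76.RG
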