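import Cfsg.Agent.H694.RG.EngP
import Cfsg.Agent.S1065

/-!
# S3509, `E₈`: the numbers (helper76)
-/

set_option autoImplicit false

namespace Cfsg.Agent.H76.RG.E8

open Cfsg.Agent.H694.RG

theorem fb_sq {d : ℕ} (hd : 0 < d) (A : ℕ) : fb d (A ^ 2) ≤ ((A + 1 : ℕ) : ℝ) / d := by
  have h0 : (0 : ℝ) < d := by exact_mod_cast hd
  unfold fb
  have h1 : √(((A ^ 2 : ℕ)) : ℝ) = A := by
    push_cast
    exact Real.sqrt_sq (by positivity)
  rw [h1]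
  have h2 : (1 : ℝ) / ((d : ℝ) + 1) ≤ 1 / d := by
    apply one_div_le_one_div_of_le h0
    linarith
  calc (1 : ℝ) / ((d : ℝ) + 1) + A / d ≤ 1 / d + A / d := by linarith
    _ = ((A + 1 : ℕ) : ℝ) / d := by push_cast; ring

/-- the sum over the primes -/
theorem num {d A₀ A₅ K : ℕ} (hd : 0 < d) (Q : Finset ℕ) (hQ : Q.card ≤ K) (h : K * (A₀ + 1) + 2 * (A₅ + 1) < d) :
    ∑ l ∈ Q, fb d (if l = 5 then A₅ ^ 2 else A₀ ^ 2) + fb d (A₅ ^ 2) < 1 := by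
  have h0 : (0 : ℝ) < d := by exact_mod_cast hd
  have h1 : ∑ l ∈ Q, fb d (if l = 5 then A₅ ^ 2 else A₀ ^ 2) ≤
      ∑ l ∈ Q, (((A₀ + 1 : ℕ) : ℝ) / d + if l = 5 then ((A₅ + 1 : ℕ) : ℝ) / d else 0) := by
    refine Finset.sum_le_sum fun l _ => ?_
    split_ifs
    · have := fb_sq hd A₅
      have h2 : (0 : ℝ) ≤ ((A₀ + 1 : ℕ) : ℝ) / d := by positivity
      linarith
    · have := fb_sq hd A₀
      linarith
  have h2 : ∑ l ∈ Q, (((A₀ + 1 : ℕ) : ℝ) / d + if l = 5 then ((A₅ + 1 : ℕ) : ℝ) / d else 0) ≤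
      K * (((A₀ + 1 : ℕ) : ℝ) / d) + ((A₅ + 1 : ℕ) : ℝ) / d := by
    rw [Finset.sum_add_distrib, Finset.sum_const, nsmul_eq_mul, Finset.sum_ite_eq']
    have h3 : ((Q.card : ℕ) : ℝ) ≤ K := by exact_mod_cast hQ
    have h4 : (0 : ℝ) ≤ ((A₀ + 1 : ℕ) : ℝ) / d := by positivity
    have h5 : (0 : ℝ) ≤ ((A₅ + 1 : ℕ) : ℝ) / d := by positivity
    have h6 : ((Q.card : ℕ) : ℝ) * (((A₀ + 1 : ℕ) : ℝ) / d) ≤ K * (((A₀ + 1 : ℕ) : ℝ) / d) :=
      mul_le_mul_of_nonneg_right h3 h4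
    split_ifs <;> linarith
  have h3 := fb_sq hd A₅
  have h4 : K * (((A₀ + 1 : ℕ) : ℝ) / d) + ((A₅ + 1 : ℕ) : ℝ) / d + ((A₅ + 1 : ℕ) : ℝ) / d < 1 := by
    have e : K * (((A₀ + 1 : ℕ) : ℝ) / d) + ((A₅ + 1 : ℕ) : ℝ) / d + ((A₅ + 1 : ℕ) : ℝ) / d =
        ((K * (A₀ + 1) + 2 * (A₅ + 1) : ℕ) : ℝ) / d := by
      push_cast; ring
    rw [e, div_lt_one h0]
    exact_mod_cast h
  linarith

/-- the number of the prime divisors -/
theorem card_primeFactors_le {n k : ℕ} (hn : n ≠ 0) (h : n ≤ 2 ^ k) : n.primeFactors.card ≤ k := by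
  have h1 : 2 ^ n.primeFactors.card ≤ ∏ p ∈ n.primeFactors, p :=
    Finset.pow_card_le_prod _ _ _ fun p hp => (Nat.prime_of_mem_primeFactors hp).two_le
  have h2 : ∏ p ∈ n.primeFactors, p ≤ n := Nat.le_of_dvd (Nat.pos_of_ne_zero hn) (Nat.prod_primeFactors_dvd n)
  exact (Nat.pow_le_pow_iff_right (by norm_num)).1 ((h1.trans h2).trans h)

/-- `q ≥ 3` -/
theorem ineq {q : ℕ} (hq : 3 ≤ q) : (248 * q) * ((q + 1) ^ 11 * q ^ 6 + 1) + 2 * ((q + 1) ^ 14 * q ^ 10 + 1) <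
    q * (q ^ 12 + 1) * (q ^ 10 + 1) * (q ^ 6 + 1) := by
  have h0 : 3 * (q + 1) ≤ 4 * q := by omega
  have h1 : (q + 1) ^ 11 ≤ 24 * q ^ 11 := by
    have h := Nat.pow_le_pow_left h0 11
    rw [mul_pow, mul_pow] at h
    norm_num at h
    nlinarith [h, Nat.zero_le (q ^ 11)]
  have h2 : (q + 1) ^ 14 ≤ 57 * q ^ 14 := by
    have h := Nat.pow_le_pow_left h0 14
    rw [mul_pow, mul_pow] at h
    norm_num at h
    nlinarith [h, Nat.zero_le (q ^ 14)]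
  have h3 : (q + 1) ^ 11 * q ^ 6 ≤ 24 * q ^ 17 := by
    calc (q + 1) ^ 11 * q ^ 6 ≤ 24 * q ^ 11 * q ^ 6 := Nat.mul_le_mul_right _ h1
      _ = 24 * q ^ 17 := by ring
  have h4 : (q + 1) ^ 14 * q ^ 10 ≤ 57 * q ^ 24 := by
    calc (q + 1) ^ 14 * q ^ 10 ≤ 57 * q ^ 14 * q ^ 10 := Nat.mul_le_mul_right _ h2
      _ = 57 * q ^ 24 := by ring
  have h5 : 1 ≤ q ^ 17 := Nat.one_le_pow _ _ (by omega)
  have h6 : 1 ≤ q ^ 24 := Nat.one_le_pow _ _ (by omega)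
  have h7 : (248 * q) * ((q + 1) ^ 11 * q ^ 6 + 1) ≤ 6200 * q ^ 18 := by
    calc (248 * q) * ((q + 1) ^ 11 * q ^ 6 + 1) ≤ (248 * q) * (24 * q ^ 17 + q ^ 17) :=
          Nat.mul_le_mul_left _ (by omega)
      _ = 6200 * q ^ 18 := by ring
  have h8 : 729 * q ^ 18 ≤ q ^ 24 := by
    calc 729 * q ^ 18 = 3 ^ 6 * q ^ 18 := by norm_num
      _ ≤ q ^ 6 * q ^ 18 := Nat.mul_le_mul_right _ (Nat.pow_le_pow_left hq 6)
      _ = q ^ 24 := by ring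
  have h9 : 243 * q ^ 24 ≤ q ^ 29 := by
    calc 243 * q ^ 24 = 3 ^ 5 * q ^ 24 := by norm_num
      _ ≤ q ^ 5 * q ^ 24 := Nat.mul_le_mul_right _ (Nat.pow_le_pow_left hq 5)
      _ = q ^ 29 := by ring
  have h10 : q ^ 29 ≤ q * (q ^ 12 + 1) * (q ^ 10 + 1) * (q ^ 6 + 1) := by
    calc q ^ 29 = q * q ^ 12 * q ^ 10 * q ^ 6 := by ring
      _ ≤ q * (q ^ 12 + 1) * (q ^ 10 + 1) * (q ^ 6 + 1) := by gcongr <;> omega
  omega

section

open Cfsg.Lie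

variable (F : Type) [Field F] [Fintype F]

theorem card_le : Nat.card ↥(chevE8.group F) ≤ 2 ^ (248 * Fintype.card F) := by
  set q := Fintype.card F with hq
  rw [S1065.result (q := q) rfl]
  have h : ∀ n, q ^ n - 1 ≤ q ^ n := fun n => Nat.sub_le _ _
  calc q ^ 120 * (q ^ 2 - 1) * (q ^ 8 - 1) * (q ^ 12 - 1) * (q ^ 14 - 1) * (q ^ 18 - 1) * (q ^ 20 - 1) * (q ^ 24 - 1) *
        (q ^ 30 - 1)
      ≤ q ^ 120 * q ^ 2 * q ^ 8 * q ^ 12 * q ^ 14 * q ^ 18 * q ^ 20 * q ^ 24 * q ^ 30 := by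
        gcongr <;> exact Nat.sub_le _ _
    _ = q ^ 248 := by ring
    _ ≤ (2 ^ q) ^ 248 := Nat.pow_le_pow_left Nat.lt_two_pow_self.le _
    _ = 2 ^ (248 * q) := by rw [← pow_mul, mul_comm]

/-- the odd primes of `E₈(2)` -/
def P2 : Finset ℕ := {3, 5, 7, 11, 13, 17, 19, 31, 41, 43, 73, 127, 151, 241, 331}

theorem mem_P2 {l : ℕ} (hl : l.Prime) (h2 : l ≠ 2) (hF : Fintype.card F = 2) (h : l ∣ Nat.card ↥(chevE8.group F)) :
    l ∈ P2 := by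
  rw [S1065.result (q := 2) hF] at h
  have e : (2 : ℕ) ^ 120 * (2 ^ 2 - 1) * (2 ^ 8 - 1) * (2 ^ 12 - 1) * (2 ^ 14 - 1) * (2 ^ 18 - 1) * (2 ^ 20 - 1) *
      (2 ^ 24 - 1) * (2 ^ 30 - 1) = 2 ^ 120 * (3 ^ 13 * (5 ^ 5 * (7 ^ 4 * (11 ^ 2 * (13 ^ 2 * (17 ^ 2 * (19 * (31 ^ 2 *
      (41 * (43 * (73 * (127 * (151 * (241 * 331)))))))))))))) := by norm_num
  rw [e] at h
  have hp : ∀ {p n : ℕ}, p.Prime → l ∣ p ^ n → l = p := fun hp h =>
    (Nat.prime_dvd_prime_iff_eq hl hp).1 (hl.dvd_of_dvd_pow h)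
  have hp1 : ∀ {p : ℕ}, p.Prime → l ∣ p → l = p := fun hp h => (Nat.prime_dvd_prime_iff_eq hl hp).1 h
  simp only [P2, Finset.mem_insert, Finset.mem_singleton]
  rcases hl.dvd_mul.1 h with h | h
  · exact absurd (hp (by norm_num) h) h2
  rcases hl.dvd_mul.1 h with h | h
  · have := hp (by norm_num) h; omega
  rcases hl.dvd_mul.1 h with h | h
  · have := hp (by norm_num) h; omega
  rcases hl.dvd_mul.1 h with h | h
  · have := hp (by norm_num) h; omega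
  rcases hl.dvd_mul.1 h with h | h
  · have := hp (by norm_num) h; omega
  rcases hl.dvd_mul.1 h with h | h
  · have := hp (by norm_num) h; omega
  rcases hl.dvd_mul.1 h with h | h
  · have := hp (by norm_num) h; omega
  rcases hl.dvd_mul.1 h with h | h
  · have := hp1 (by norm_num) h; omega
  rcases hl.dvd_mul.1 h with h | h
  · have := hp (by norm_num) h; omega
  rcases hl.dvd_mul.1 h with h | h
  · have := hp1 (by norm_num) h; omega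
  rcases hl.dvd_mul.1 h with h | h
  · have := hp1 (by norm_num) h; omega
  rcases hl.dvd_mul.1 h with h | h
  · have := hp1 (by norm_num) h; omega
  rcases hl.dvd_mul.1 h with h | h
  · have := hp1 (by norm_num) h; omega
  rcases hl.dvd_mul.1 h with h | h
  · have := hp1 (by norm_num) h; omega
  rcases hl.dvd_mul.1 h with h | h
  · have := hp1 (by norm_num) h; omega
  · have := hp1 (by norm_num) h; omega

end

end Cfsg.Agent.H76.RG.E8
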