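import Cfsg.Agent.H76.RG.High

/-!
# S3509: sets of roots, transport and counting (helper76)

* `RSet.pull` : the set `{a | rep w a ∈ S}`; `nb_pull`, `ncard_pull`;
* `ncard_pos` : `|S| = 2 |S⁺|`;
* `nb_add_one` : in the simply laced case `nb S a + 1` is the number of the positive elements of `S` not orthogonal to `a ∈ S⁺`;
* `Cn` : chains of non-orthogonal elements of `S`.
-/

set_option autoImplicit false
set_option linter.unusedSectionVars false

namespace Cfsg.Agent.H76.RG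

open CoxeterSystem Cfsg.Agent.ChevalleyStructure.CoxeterGeom Cfsg.Agent.Tits.Roots Cfsg.Agent.Tits.Core
  Cfsg.Agent.Tits.RootComb Cfsg.Agent.Tits.Exchange Cfsg.Agent.Nodes.Reps Cfsg.Agent.Nodes.BNOf
  Cfsg.Agent.Nodes.Coroot Cfsg.Agent.Nodes.PosPair Cfsg.Agent.KFacts.RgdSL Cfsg.Agent.H460.OT

variable {I W : Type*} [Fintype I] [DecidableEq I] [Group W] [Finite W] {M : CoxeterMatrix I}
  {cs : CoxeterSystem M W} {A : I → I → ℤ} {h : IsCartan M A} {S : Set (I → ℤ)}

theorem isRoot_rep_iff (w : W) {v : I → ℤ} : IsRoot cs h (rep cs h w v) ↔ IsRoot cs h v := by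
  refine ⟨fun h' => ?_, fun h' => h'.act w⟩
  have := h'.act w⁻¹
  rwa [rep_inv_apply] at this

theorem RSet.finite (hS : RSet cs h S) : S.Finite := (RGD.finite_roots (cs := cs) (h := h)).subset hS.root

theorem RSet.pull (hS : RSet cs h S) (w : W) : RSet cs h {a | rep cs h w a ∈ S} where
  root a ha := (isRoot_rep_iff w).1 (hS.root _ ha)
  neg a ha := by
    rw [Set.mem_ofPred_eq, map_neg]
    exact hS.neg _ ha
  add a ha b hb hab := by
    rw [Set.mem_ofPred_eq, map_add]
    exact hS.add _ ha _ hb (by rw [← map_add]; exact (isRoot_rep_iff w).2 hab)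
  refl a ha b hb := by
    rw [Set.mem_ofPred_eq, map_sub, map_smul, ← cpr_rep cs h w a ((isRoot_rep_iff w).1 (hS.root _ hb))]
    exact hS.refl _ ha _ hb

theorem rep_bij (w : W) : Function.Bijective fun x => rep cs h w x :=
  ⟨rep_injective_apply cs h w, fun y => ⟨rep cs h w⁻¹ y, rep_apply_inv cs h w y⟩⟩

theorem nb_pull (w : W) (a : I → ℤ) : nb cs h S (rep cs h w a) = nb cs h {a | rep cs h w a ∈ S} a :=
  nb_map (F := fun x => rep cs h w x) (rep_bij w) (fun a b => map_sub _ a b) (fun _ => isRoot_rep_iff w) (fun _ => Iff.rfl) a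

theorem ncard_pull (w : W) : S.ncard = {a | rep cs h w a ∈ S}.ncard := by
  have e : S = (fun x => rep cs h w x) '' {a | rep cs h w a ∈ S} := by
    ext x
    constructor
    · intro hx
      obtain ⟨y, rfl⟩ := (rep_bij (cs := cs) (h := h) w).2 x
      exact ⟨y, hx, rfl⟩
    · rintro ⟨y, hy, rfl⟩
      exact hy
  conv_lhs => rw [e]
  exact Set.ncard_image_of_injective _ (rep_injective_apply cs h w)

theorem ncard_pos (hS : RSet cs h S) : S.ncard = 2 * {a | a ∈ S ∧ 0 ≤ a}.ncard := by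
  have h1 : S = {a | a ∈ S ∧ 0 ≤ a} ∪ (fun a => -a) '' {a | a ∈ S ∧ 0 ≤ a} := by
    ext a
    constructor
    · intro ha
      rcases (hS.root a ha).pos_or_neg with h0 | h0
      · exact Or.inl ⟨ha, h0⟩
      · exact Or.inr ⟨-a, ⟨hS.neg a ha, neg_nonneg.2 h0⟩, neg_neg a⟩
    · rintro (ha | ⟨b, hb, rfl⟩)
      · exact ha.1
      · exact hS.neg b hb.1
  have h2 : Disjoint {a | a ∈ S ∧ 0 ≤ a} ((fun a => -a) '' {a | a ∈ S ∧ 0 ≤ a}) := by
    rw [Set.disjoint_left]
    rintro _ ⟨h3, h4⟩ ⟨b, hb, rfl⟩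
    exact (hS.root b hb.1).not_pos_neg hb.2 (neg_nonneg.1 h4)
  have hf : {a | a ∈ S ∧ 0 ≤ a}.Finite := hS.finite.subset fun a ha => ha.1
  conv_lhs => rw [h1]
  rw [Set.ncard_union_eq h2 hf (hf.image _), Set.ncard_image_of_injective _ neg_injective]
  omega

/-- in the simply laced case a difference of roots is a root iff the pairing is one -/
theorem sub_iff (hs : SL cs h) {a b : I → ℤ} (ha : IsRoot cs h a) (hb : IsRoot cs h b) :
    IsRoot cs h (a - b) ↔ cpr cs h b a = 1 := by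
  constructor
  · intro hr
    rcases hs.cases hb ha with ⟨e, -⟩ | ⟨e, -⟩ | ⟨-, -, h1, h2⟩
    · exfalso
      rw [e, sub_self] at hr
      exact hr.ne_zero rfl
    · exfalso
      have h3 : a - b = (2 : ℤ) • a := by rw [e]; module
      have h4 := isUnit_of_smul cs h hr 2 h3
      rw [Int.isUnit_iff] at h4
      omega
    · have h3 : cpr cs h (a - b) a = 2 - cpr cs h b a := by rw [cpr_sub' ha, cpr_self cs h ha]
      rcases hs.cases hr ha with ⟨e, -⟩ | ⟨e, -⟩ | ⟨-, -, h4, h5⟩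
      · exfalso
        have : b = 0 := by
          have := sub_eq_self.1 e
          exact this
        exact hb.ne_zero this
      · exfalso
        have h6 : b = (2 : ℤ) • a := by
          have h7 : b = a - (a - b) := by abel
          rw [h7, e]; module
        have h8 := isUnit_of_smul cs h hb 2 h6
        rw [Int.isUnit_iff] at h8
        omega
      · omega
  · intro hc
    exact isRoot_sub ha hb (by rw [hs a b ha hb]; exact hc)

theorem nb_add_one (hs : SL cs h) (hS : RSet cs h S) {a : I → ℤ} (ha : a ∈ S) (h0 : 0 ≤ a) :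
    nb cs h S a + 1 = {x | (x ∈ S ∧ 0 ≤ x) ∧ cpr cs h x a ≠ 0}.ncard := by
  classical
  have ra := hS.root a ha
  set E := {x | (x ∈ S ∧ 0 ≤ x) ∧ cpr cs h x a ≠ 0} with hE
  have haE : a ∈ E := ⟨⟨ha, h0⟩, by rw [cpr_self cs h ra]; norm_num⟩
  have hfin : E.Finite := hS.finite.subset fun x hx => hx.1.1
  rw [← Set.ncard_sdiff_singleton_add_one haE hfin]
  congr 1
  unfold nb
  have hval : ∀ x ∈ E \ {a}, cpr cs h x a = 1 ∨ cpr cs h x a = -1 := by
    rintro x ⟨⟨⟨hx, hx0⟩, hxc⟩, hxa⟩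
    rcases hs.cases (hS.root x hx) ra with ⟨e, -⟩ | ⟨e, -⟩ | ⟨-, -, h1, h2⟩
    · exact absurd e hxa
    · exfalso
      rw [e] at hx0
      exact ra.not_pos_neg h0 (neg_nonneg.1 hx0)
    · omega
  have himg : {b | b ∈ S ∧ IsRoot cs h (a - b)} = (fun x => if cpr cs h x a = 1 then x else -x) '' (E \ {a}) := by
    ext b
    constructor
    · rintro ⟨hb, hr⟩
      have rb := hS.root b hb
      have hc := (sub_iff hs ra rb).1 hr
      have hba : b ≠ a := by rintro rfl; rw [sub_self] at hr; exact hr.ne_zero rfl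
      have hba' : -b ≠ a := by
        intro e
        rw [← e, cpr_neg_right cs h b rb, cpr_self cs h rb] at hc
        omega
      rcases rb.pos_or_neg with h1 | h1
      · exact ⟨b, ⟨⟨⟨hb, h1⟩, by rw [hc]; norm_num⟩, hba⟩, by simp [hc]⟩
      · have h2 : cpr cs h (-b) a = -1 := by rw [cpr_neg cs h _ ra, hc]
        refine ⟨-b, ⟨⟨⟨hS.neg b hb, neg_nonneg.2 h1⟩, by rw [h2]; norm_num⟩, hba'⟩, ?_⟩
        show (if cpr cs h (-b) a = 1 then -b else - -b) = b
        rw [if_neg (by rw [h2]; norm_num), neg_neg]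
    · rintro ⟨x, hx, rfl⟩
      have rx := hS.root x hx.1.1.1
      rcases hval x hx with h1 | h1
      · simp only [h1, if_true]
        exact ⟨hx.1.1.1, (sub_iff hs ra rx).2 h1⟩
      · show (if cpr cs h x a = 1 then x else -x) ∈ {b | b ∈ S ∧ IsRoot cs h (a - b)}
        rw [if_neg (by rw [h1]; norm_num)]
        refine ⟨hS.neg x hx.1.1.1, (sub_iff hs ra rx.neg).2 ?_⟩
        rw [cpr_neg cs h _ ra, h1]; norm_num
  rw [himg, Set.InjOn.ncard_image]
  rintro x hx y hy (hxy : (if cpr cs h x a = 1 then x else -x) = if cpr cs h y a = 1 then y else -y)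
  have pos : ∀ x y, x ∈ E → y ∈ E → x = -y → False := by
    intro x y hx hy e
    have hx0 := hx.1.2
    rw [e] at hx0
    exact (hS.root y hy.1.1).not_pos_neg hy.1.2 (neg_nonneg.1 hx0)
  split_ifs at hxy with h1 h2 h2
  · exact hxy
  · exact (pos x y hx.1 hy.1 hxy).elim
  · exact (pos y x hy.1 hx.1 hxy.symm).elim
  · exact neg_injective hxy

/-! ### chains -/

/-- neighbours in `S` -/
def Nh (cs : CoxeterSystem M W) (h : IsCartan M A) (S : Set (I → ℤ)) (x y : I → ℤ) : Prop :=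
  x ∈ S ∧ y ∈ S ∧ cpr cs h y x ≠ 0

/-- chains in `S` -/
def Cn (cs : CoxeterSystem M W) (h : IsCartan M A) (S : Set (I → ℤ)) (x y : I → ℤ) : Prop :=
  Relation.ReflTransGen (Nh cs h S) x y

theorem Nh.symm (hS : RSet cs h S) {x y : I → ℤ} (hxy : Nh cs h S x y) : Nh cs h S y x :=
  ⟨hxy.2.1, hxy.1, cpr_ne_comm (hS.root _ hxy.2.1) (hS.root _ hxy.1) hxy.2.2⟩

theorem Cn.symm (hS : RSet cs h S) {x y : I → ℤ} (hxy : Cn cs h S x y) : Cn cs h S y x := by
  induction hxy with
  | refl => exact Relation.ReflTransGen.refl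
  | tail _ h2 ih => exact Relation.ReflTransGen.head (h2.symm hS) ih

theorem Cn.trans {x y z : I → ℤ} (hxy : Cn cs h S x y) (hyz : Cn cs h S y z) : Cn cs h S x z :=
  Relation.ReflTransGen.trans hxy hyz

theorem Cn.of {x y : I → ℤ} (hx : x ∈ S) (hy : y ∈ S) (hc : cpr cs h y x ≠ 0) : Cn cs h S x y :=
  Relation.ReflTransGen.single ⟨hx, hy, hc⟩

theorem Cn.neg (hS : RSet cs h S) {x : I → ℤ} (hx : x ∈ S) : Cn cs h S x (-x) :=
  Cn.of hx (hS.neg x hx) (by
    rw [cpr_neg cs h _ (hS.root x hx), cpr_self cs h (hS.root x hx)]; norm_num)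

theorem Cn.chain {x y : I → ℤ} (hxy : Cn cs h S x y) :
    Relation.ReflTransGen (fun x y => y ∈ S ∧ cpr cs h y x ≠ 0) x y := by
  induction hxy with
  | refl => exact Relation.ReflTransGen.refl
  | tail _ h2 ih => exact ih.tail ⟨h2.2.1, h2.2.2⟩

theorem Cn.nb (hs : SL cs h) (hS : RSet cs h S) {x y : I → ℤ} (hxy : Cn cs h S x y) :
    nb cs h S x = nb cs h S y := by
  induction hxy with
  | refl => rfl
  | tail _ h2 ih => rw [ih, nb_eq hs hS h2.1 h2.2.1 h2.2.2]

theorem Cn.mem {x y : I → ℤ} (hx : x ∈ S) (hxy : Cn cs h S x y) : y ∈ S := by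
  induction hxy with
  | refl => exact hx
  | tail _ h2 _ => exact h2.2.1

theorem Cn.push {w : W} (hS : RSet cs h S) {x y : I → ℤ} (hxy : Cn cs h {a | rep cs h w a ∈ S} x y) :
    Cn cs h S (rep cs h w x) (rep cs h w y) := by
  induction hxy with
  | refl => exact Relation.ReflTransGen.refl
  | tail _ h2 ih =>
    refine ih.tail ⟨h2.1, h2.2.1, ?_⟩
    rw [cpr_rep cs h w _ ((isRoot_rep_iff w).1 (hS.root _ h2.1))]
    exact h2.2.2

end Cfsg.Agent.H76.RG
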